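import Cfsg.Agent.M12Type.Emb
import Cfsg.Agent.M12Type.Enum.Step
import Cfsg.Agent.M12Type.Enum.Words
import Cfsg.Agent.CosetEnum.Glue

/-!
Seven elements satisfying the relators generate at most 95040 elements.
-/

set_option autoImplicit false
set_option maxRecDepth 20000

namespace Cfsg.Agent.M12Type.Enum

open Cfsg.Agent.CosetCert Cfsg.Agent.CosetEnum

/-- the inverse letter -/
def invl (l : ℕ) : ℕ := [0, 2, 1, 4, 3, 6, 5, 8, 7, 10, 9, 12, 11, 14, 13].getD l 0

/-- the inverse word -/
def invW (w : List ℕ) : List ℕ := w.reverse.map invl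

/-- the relators involving the two new letters -/
def relX : List (List ℕ) :=
  [[11, 11, 11], [13, 13, 13], [11] ++ [1] ++ [12] ++ invW [1], [3] ++ [11] ++ invW [3] ++ [11],
    [13] ++ [1] ++ [14] ++ invW [1], [13] ++ [3] ++ [14] ++ invW [3], wz ++ [13] ++ invW wz ++ [13],
    wn ++ [13] ++ invW wn ++ [14], wz ++ [11, 13] ++ wz ++ [11, 13],
    [11] ++ wz ++ [12] ++ invW (fW.getD 0 []), [11] ++ wb ++ [12] ++ invW (fW.getD 1 []),
    [11] ++ w3 ++ [12] ++ invW (fW.getD 2 []), [11] ++ w4 ++ [12] ++ invW (fW.getD 3 [])]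

variable {G H : Type*} [Group G] [Group H]

/-- the letters of seven elements -/
def lett (e : Fin 7 → G) (l : ℕ) : G :=
  [1, e 0, (e 0)⁻¹, e 1, (e 1)⁻¹, e 2, (e 2)⁻¹, e 3, (e 3)⁻¹, e 4, (e 4)⁻¹, e 5, (e 5)⁻¹,
    e 6, (e 6)⁻¹].getD l 1

/-- the value of a word -/
def ev (g : ℕ → G) (w : List ℕ) : G := (w.map g).prod

theorem ev_cons (g : ℕ → G) (l : ℕ) (w : List ℕ) : ev g (l :: w) = g l * ev g w := by
  simp [ev]

theorem ev_append (g : ℕ → G) (v w : List ℕ) : ev g (v ++ w) = ev g v * ev g w := by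
  simp [ev]

theorem ev_single (g : ℕ → G) (l : ℕ) : ev g [l] = g l := by simp [ev]

theorem lett_invl (e : Fin 7 → G) (l : ℕ) : lett e (invl l) = (lett e l)⁻¹ := by
  by_cases h : l ≤ 14
  · interval_cases l <;> simp [lett, invl]
  · simp [lett, invl, List.getD_eq_default, show 15 ≤ l by omega]

theorem map_lett (φ : G →* H) (e : Fin 7 → G) (l : ℕ) : φ (lett e l) = lett (fun i => φ (e i)) l := by
  by_cases h : l ≤ 14
  · interval_cases l <;> simp [lett]
  · simp [lett, List.getD_eq_default, show 15 ≤ l by omega]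

theorem map_ev_lett (φ : G →* H) (e : Fin 7 → G) (w : List ℕ) :
    φ (ev (lett e) w) = ev (lett fun i => φ (e i)) w := by
  induction w with
  | nil => simp [ev]
  | cons l w ih => rw [ev_cons, ev_cons, map_mul, map_lett, ih]

theorem ev_invW (e : Fin 7 → G) (w : List ℕ) : ev (lett e) (invW w) = (ev (lett e) w)⁻¹ := by
  induction w with
  | nil => simp [invW, ev]
  | cons l w ih =>
    have he : invW (l :: w) = invW w ++ [invl l] := by simp [invW]
    rw [he, ev_append, ih, ev_cons (lett e) l w, mul_inv_rev, ev_single, lett_invl]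

/-- all the relators -/
def Rels (e : Fin 7 → G) : Prop := ∀ w ∈ relL ++ relX, ev (lett e) w = 1

theorem step_rel {e : Fin 7 → G} (h : Rels e) (u : List ℕ) (hu : u ∈ step.words) :
    pval (lett e) u = 1 := by
  rw [pval_eq_prod]
  exact h _ ((by decide +kernel : ∀ u ∈ step.words, u.reverse ∈ relL ++ relX) u hu)

/-- The bound, given a bound for the first five generators. -/
theorem bound_rels {e : Fin 7 → G} (h : Rels e)
    (hsub : Finite (Subgroup.closure (lett e '' {l | l ∈ List.range' 1 10})) ∧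
      Nat.card (Subgroup.closure (lett e '' {l | l ∈ List.range' 1 10})) ≤ 192) :
    Finite (Subgroup.closure (lett e '' {l | l ∈ step.letters})) ∧
      Nat.card (Subgroup.closure (lett e '' {l | l ∈ step.letters})) ≤ 95040 := by
  have h1 := bound_step step_valid (lett e) rfl
    (fun l => by
      have : step.inv l = invl l := by
        show step.invl.getD l 0 = _
        rw [show step.invl = [0, 2, 1, 4, 3, 6, 5, 8, 7, 10, 9, 12, 11, 14, 13] from rfl]
        rfl
      rw [this, lett_invl])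
    (step_rel h) (List.range' 1 10) (by decide +kernel) hsub
  rw [show step.N * 192 = 95040 from rfl] at h1
  exact h1

/-- the five generators as indices -/
def fiveI : List Ix := [yI, aI, bI, nI, hI]

/-- the letters as indices -/
def lettI (l : ℕ) : Ix :=
  [ix 0, yI, iv yI, aI, iv aI, bI, iv bI, nI, iv nI, hI, iv hI].getD l (ix 0)

/-- the value of a word in the first five generators -/
def evI (w : List ℕ) : Ix := w.foldr (fun l i => mu (lettI l) i) (ix 0)

theorem relL_table : ∀ w ∈ relL, (∀ l ∈ w, l ≤ 10) ∧ evI w = ix 0 := by decide +kernel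

theorem word_values : (∀ w ∈ [wz, wb, wn, w3, w4] ++ fW, ∀ l ∈ w, l ≤ 10) ∧
    evI wz = zI ∧ evI wb = bI ∧ evI wn = nI ∧ evI w3 = ix r3N ∧ evI w4 = ix r4N ∧
    fW.map evI = [bI, mu bI zI] ++ f0Imgs.map ix := by
  decide +kernel

theorem ev_emb {z : G} (E : Emb G z) {e : Fin 7 → G} (h0 : e 0 = E.e yI) (h1 : e 1 = E.e aI)
    (h2 : e 2 = E.e bI) (h3 : e 3 = E.e nI) (h4 : e 4 = E.e hI) {w : List ℕ} (hw : ∀ l ∈ w, l ≤ 10) :
    ev (lett e) w = E.e (evI w) := by
  induction w with
  | nil => simp [ev, evI, E.e_one]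
  | cons l w ih =>
    rw [List.forall_mem_cons] at hw
    have hl : lett e l = E.e (lettI l) := by
      obtain ⟨hl, -⟩ := hw
      interval_cases l <;> simp [lett, lettI, E.e_one, E.e_iv, h0, h1, h2, h3, h4]
    rw [ev_cons, ih hw.2, hl, ← E.map_mu]
    rfl

end Cfsg.Agent.M12Type.Enum
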